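import Cfsg.Agent.Chev.D4Even.Normal
import Cfsg.Agent.Chev.D4Even.TorusChar
import Mathlib.GroupTheory.Sylow

/-!
# The two classes of involutions of `³D₄(q)`, `q` even
-/

set_option autoImplicit false
set_option linter.unusedSectionVars false
set_option maxRecDepth 100000

namespace CfsgLib.Chev.D4Even

open Cfsg.Lie CfsgLib.Chev Matrix CfsgLib.Chev.Twisted

universe u

variable {K : Type u} [Field K] [CharP K 2] [Fintype K] {q : ℕ}
  (hq : IsPrimePow q) (hK : Fintype.card K = q ^ 3)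

local notation "φ" => D4.phi hq hK
local notation "G" => twistedD4 K q

include hq hK

theorem h3 (x : K) : φ (φ (φ x)) = x := by
  rw [D4.phi_apply, D4.phi_apply, D4.phi_apply, ← pow_mul, ← pow_mul,
    show q * (q * q) = q ^ 3 by ring, ← hK, FiniteField.pow_card]

theorem Tr3_fixed (x : K) : φ (Tr3 φ x) = Tr3 φ x := by
  simp only [Tr3, map_add, h3 hq hK]; ring

theorem Nm_fixed (x : K) : φ (Nm φ x) = Nm φ x := by
  simp only [Nm, map_mul, h3 hq hK]; ring

theorem phi_ne {x : K} (hx : x ≠ 0) : φ x ≠ 0 := fun h => hx ((φ).injective (by rw [h, map_zero]))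

theorem P_mem_G {b e f : K} (hb : φ b = b) (he : φ e = e) (hf : φ f = f) (a c d : K) :
    P φ b a c d e f ∈ G := by
  refine (D4.gdata hq hK).U1_le (Subgroup.mem_inf.2 ⟨P_mem _ _ _ _ _ _ _, ?_⟩)
  exact sigma_P _ (h3 hq hK) hb he hf a c d

/-- The elements of `U¹`. -/
theorem exists_P {g : GL chevD4.Idx K} (hg : g ∈ chevD4.posUnipotent K) (hg' : g ∈ G) :
    ∃ b a c d e f : K, φ b = b ∧ φ e = e ∧ φ f = f ∧ g = P φ b a c d e f := by
  classical
  have hphi : ∀ t : K, (φ)^[1] t = φ t := fun t => rfl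
  have hF : Nat.card {t : K // φ t = t} = q := by
    have := card_fix_pow (D4.phi_apply hq hK) hq.pos (D4.natCard hK) (one_dvd 3)
    rwa [pow_one] at this
  let T := {t : K // φ t = t} × K × K × K × {t : K // φ t = t} × {t : K // φ t = t}
  let m : T → ↥(chevD4.posUnipotent K ⊓ G) := fun x =>
    ⟨P φ x.1.1 x.2.1 x.2.2.1 x.2.2.2.1 x.2.2.2.2.1.1 x.2.2.2.2.2.1,
      P_mem _ _ _ _ _ _ _, P_mem_G hq hK x.1.2 x.2.2.2.2.1.2 x.2.2.2.2.2.2 _ _ _⟩
  have hinj : Function.Injective m := by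
    rintro ⟨b, a, c, d, e, f⟩ ⟨b', a', c', d', e', f'⟩ h
    obtain ⟨h1, h2, h3', h4, h5, h6⟩ := P_inj φ (congrArg Subtype.val h)
    simp only at h1 h2 h3' h4 h5 h6
    simp [Subtype.ext h1, h2, h3', h4, Subtype.ext h5, Subtype.ext h6]
  have hcard : Nat.card T = Nat.card ↥(chevD4.posUnipotent K ⊓ G) := by
    rw [D4.card_U1 hq hK]
    simp only [T, Nat.card_prod, hF, D4.natCard hK]
    ring
  haveI : Finite (GL chevD4.Idx K) := Sys.finite_GL
  obtain ⟨x, hx⟩ := ((Nat.bijective_iff_injective_and_card m).2 ⟨hinj, hcard⟩).2 ⟨g, hg, hg'⟩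
  exact ⟨_, _, _, _, _, _, x.1.2, x.2.2.2.2.1.2, x.2.2.2.2.2.2, (congrArg Subtype.val hx).symm⟩

/-- Conjugate inside the group to one of the two representatives. -/
def ConjRep (g : GL chevD4.Idx K) : Prop :=
  ∃ h ∈ G, h * g * h⁻¹ = Xf 1 ∨ h * g * h⁻¹ = Xd φ 1

theorem ConjRep.of_conj {g g' k : GL chevD4.Idx K} (hk : k ∈ G)
    (e : k * g * k⁻¹ = g') (h : ConjRep hq hK g') : ConjRep hq hK g := by
  obtain ⟨h', hh', e'⟩ := h
  refine ⟨h' * k, mul_mem hh' hk, ?_⟩
  rwa [show h' * k * g * (h' * k)⁻¹ = h' * (k * g * k⁻¹) * h'⁻¹ by group, e]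

/-- A reduction by an involution of the group. -/
theorem step {g g' x : GL chevD4.Idx K} (hx : x ∈ G) (hxx : x * x = 1) (e : x * g * x = g')
    (hg : g * g = 1) (h : g' * g' = 1 → ConjRep hq hK g') : ConjRep hq hK g := by
  have hxi : x⁻¹ = x := inv_eq_of_mul_eq_one_right hxx
  refine ConjRep.of_conj hq hK hx (by rw [hxi, e]) (h ?_)
  rw [← e, show x * g * x * (x * g * x) = x * g * (x * x) * g * x by group, hxx, mul_one,
    mul_assoc x g g, hg, mul_one, hxx]

theorem Xb_mem {t : K} (ht : φ t = t) : Xb t ∈ G ∧ Xb t * Xb t = 1 := by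
  refine ⟨?_, ?_⟩
  · rw [← (P_single φ t).1]; exact P_mem_G hq hK ht (map_zero _) (map_zero _) _ _ _
  · rw [Xb, X_add, CharTwo.add_self_eq_zero, X_zero]

theorem Xe_mem {t : K} (ht : φ t = t) : Xe t ∈ G ∧ Xe t * Xe t = 1 := by
  refine ⟨?_, ?_⟩
  · rw [← (P_single φ t).2.2.2.2.1]; exact P_mem_G hq hK (map_zero _) ht (map_zero _) _ _ _
  · rw [Xe, X_add, CharTwo.add_self_eq_zero, X_zero]

theorem Xf_mem {t : K} (ht : φ t = t) : Xf t ∈ G := by
  rw [← (P_single φ t).2.2.2.2.2]; exact P_mem_G hq hK (map_zero _) (map_zero _) ht _ _ _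

theorem Xa_mem (t : K) : Xa φ t ∈ G ∧ Xa φ t * Xa φ t = 1 := by
  refine ⟨?_, ?_⟩
  · rw [← (P_single φ t).2.1]; exact P_mem_G hq hK (map_zero _) (map_zero _) (map_zero _) _ _ _
  · conv_lhs => arg 1; rw [← (P_single φ t).2.1]
    rw [P_mula φ (h3 hq hK)]
    simp [S2, Tr3, CharTwo.add_self_eq_zero, P_zero]

theorem Xc_mem (t : K) : Xc φ t ∈ G ∧ Xc φ t * Xc φ t = 1 := by
  refine ⟨?_, ?_⟩
  · rw [← (P_single φ t).2.2.1]; exact P_mem_G hq hK (map_zero _) (map_zero _) (map_zero _) _ _ _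
  · conv_lhs => arg 1; rw [← (P_single φ t).2.2.1]
    rw [P_mulc φ (h3 hq hK)]
    simp [Tr3, CharTwo.add_self_eq_zero, P_zero]

theorem Xd_mem (t : K) : Xd φ t ∈ G := by
  rw [← (P_single φ t).2.2.2.1]; exact P_mem_G hq hK (map_zero _) (map_zero _) (map_zero _) _ _ _

theorem nU_conj {s : ℕ} (hs : s < 24) {i : ℕ} (hi : i < 4) (t : K) :
    sysD4.nU (chevD4.simple i) 1 * X s t * (sysD4.nU (chevD4.simple i) 1)⁻¹ =
      X (sysD4.{u}.pi i s) t := by
  show _ * sysD4.xU s t * _ = sysD4.xU _ t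
  rw [sysD4.nU_conj_xU (show i < chevD4.rank from hi) (show s < chevD4.nroots from hs)]
  rcases sysD4.{u}.eta_unit i hi s hs with h | h <;> rw [h] <;> simp [CharTwo.neg_eq]

theorem nw_conj : ∀ L : List ℕ, (∀ i ∈ L, i < 4) → ∀ s < 24, ∀ t : K,
    sysD4.nw K L * X s t * (sysD4.nw K L)⁻¹ = X (pw sysD4.{u}.pi L s) t ∧
      pw sysD4.{u}.pi L s < 24
  | [], _, s, hs, t => ⟨by simp [pw], hs⟩
  | i :: L, hL, s, hs, t => by
    obtain ⟨e, hlt⟩ := nw_conj L (fun x hx => hL x (List.mem_cons_of_mem _ hx)) s hs t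
    have hi := hL i (List.mem_cons_self ..)
    refine ⟨?_, ?_⟩
    · rw [Sys.nw_cons, show ∀ a b c : GL chevD4.Idx K, a * b * c * (a * b)⁻¹ =
        a * (b * c * b⁻¹) * a⁻¹ from fun a b c => by group, e, nU_conj hq hK hlt hi]
      rfl
    · exact sysD4.{u}.pi_lt i hi _ hlt

/-- The monomial element of an orbit. -/
noncomputable def nn (j : Fin 2) : GL chevD4.Idx K := (D4.gdata hq hK).nJ j

theorem nn_mem (j : Fin 2) : nn hq hK j ∈ G := (D4.gdata hq hK).nJ_mem j

theorem nn_conj (j : Fin 2) (s s' : ℕ) (hs : s < 24)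
    (e : pw sysD4.{u}.pi (List.ofFn ((D4.orbits.{u}).mem j)) s = s') (t : K) :
    MulAut.conj (nn hq hK j) (X s t) = X s' t := by
  show (D4.orbits.{u}).nJ K j * X s t * ((D4.orbits.{u}).nJ K j)⁻¹ = _
  rw [Orbits.nJ_eq_nw, ← e]
  exact (nw_conj hq hK _ ((D4.orbits.{u}).word_lt j) s hs t).1

theorem nb_Xa (t : K) : MulAut.conj (nn hq hK 0) (Xa φ t) = Xc φ t := by
  simp only [Xa, Xc, map_mul]
  rw [nn_conj hq hK 0 18 19 (by omega) (by decide +kernel),
    nn_conj hq hK 0 13 16 (by omega) (by decide +kernel),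
    nn_conj hq hK 0 12 15 (by omega) (by decide +kernel)]

theorem nb_Xe (t : K) : MulAut.conj (nn hq hK 0) (Xe t) = Xf t :=
  nn_conj hq hK 0 22 23 (by omega) (by decide +kernel) t

theorem nb_Xf (t : K) : MulAut.conj (nn hq hK 0) (Xf t) = Xe t :=
  nn_conj hq hK 0 23 22 (by omega) (by decide +kernel) t

theorem na_Xb (t : K) : MulAut.conj (nn hq hK 1) (Xb t) = Xe t :=
  nn_conj hq hK 1 14 22 (by omega) (by decide +kernel) t

theorem na_Xf (t : K) : MulAut.conj (nn hq hK 1) (Xf t) = Xf t :=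
  nn_conj hq hK 1 23 23 (by omega) (by decide +kernel) t

theorem na_Xc (t : K) : MulAut.conj (nn hq hK 1) (Xc φ t) = Xd φ t := by
  simp only [Xd, Xc, map_mul]
  rw [nn_conj hq hK 1 19 17 (by omega) (by decide +kernel),
    nn_conj hq hK 1 16 20 (by omega) (by decide +kernel),
    nn_conj hq hK 1 15 21 (by omega) (by decide +kernel)]

theorem na_Xd (t : K) : MulAut.conj (nn hq hK 1) (Xd φ t) = Xc φ t := by
  simp only [Xd, Xc, map_mul]
  rw [nn_conj hq hK 1 17 19 (by omega) (by decide +kernel),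
    nn_conj hq hK 1 20 16 (by omega) (by decide +kernel),
    nn_conj hq hK 1 21 15 (by omega) (by decide +kernel)]

theorem exists_sqrt (x : K) : ∃ y : K, y ^ 2 = x :=
  ⟨(frobeniusEquiv K 2).symm x, frobeniusEquiv_symm_pow_p (R := K) (p := 2) x⟩

theorem sq_inj {x y : K} (h : x ^ 2 = y ^ 2) : x = y :=
  frobenius_inj K 2 (by simpa [frobenius_def] using h)

/-- Conjugation by an element of the torus of the group. -/
theorem torus_conj (c : Fin 4 → Kˣ) (h0 : (c 2 : K) = φ (c 0)) (h1 : φ (c 1 : K) = c 1)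
    (h2 : (c 3 : K) = φ (c 2)) :
    ∃ k ∈ G, ∀ r < 24, ∀ t : K, k * X r t * k⁻¹ = X r (((c 0 ^ chevD4.cartan 0 r *
      c 1 ^ chevD4.cartan 1 r * c 2 ^ chevD4.cartan 2 r * c 3 ^ chevD4.cartan 3 r : Kˣ) : K) * t) := by
  have hfix : ∀ i : Fin chevD4.rank, c (D4.graph.tauP i) = Units.map (φ : K →* K) (c i) := by
    intro i
    refine Units.ext ?_
    have hi : D4.graph.tauP i = (⟨[2, 1, 3, 0].getD (i : ℕ) 0, D4.graph.tau_lt i i.2⟩ : Fin 4) := rfl
    rw [hi]
    obtain ⟨i, hi'⟩ := i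
    have : i < 4 := hi'
    interval_cases i
    · exact h0
    · exact h1.symm
    · exact h2
    · show (c 0 : K) = φ (c 3)
      rw [h2, h0, h3 hq hK]
  refine ⟨sysD4.theta (c : Fin chevD4.rank → Kˣ), ?_, fun r hr t => ?_⟩
  · rw [D4.twisted_eq hq hK]
    exact (D4.orbits.{u}).theta_mem φ hfix
  · show sysD4.dg (torHom chevD4 c) * sysD4.xU r t * (sysD4.dg (torHom chevD4 c))⁻¹ = _
    rw [sysD4.dg_conj_xU _ (show r < chevD4.nroots from hr),
      sysD4.chi_torHom_prod c (show r < chevD4.nroots from hr)]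
    show sysD4.xU r _ = sysD4.xU r _
    congr 3
    exact Fin.prod_univ_four _

theorem rep_d {d : K} (hd : d ≠ 0) : ConjRep hq hK (Xd φ d) := by
  obtain ⟨u, hu⟩ := exists_sqrt hq hK (φ d⁻¹ * φ (φ d⁻¹))
  have hu0 : u ≠ 0 := by
    rintro rfl
    simp [hd] at hu
  set w : Kˣ := Units.mk0 u hu0
  obtain ⟨k, hk, hc⟩ := torus_conj hq hK ![w, 1, Units.map (φ : K →* K) w,
    Units.map (φ : K →* K) (Units.map (φ : K →* K) w)] rfl (map_one _) rfl
  refine ⟨k, hk, Or.inr ?_⟩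
  show MulAut.conj k (Xd φ d) = _
  simp only [Xd, map_mul]
  simp only [MulAut.conj_apply, hc 17 (by omega), hc 20 (by omega), hc 21 (by omega)]
  have t17 : chevD4.cartan 0 17 = -1 ∧ chevD4.cartan 1 17 = 0 ∧ chevD4.cartan 2 17 = 1 ∧
      chevD4.cartan 3 17 = 1 := by decide +kernel
  have t20 : chevD4.cartan 0 20 = 1 ∧ chevD4.cartan 1 20 = 0 ∧ chevD4.cartan 2 20 = -1 ∧
      chevD4.cartan 3 20 = 1 := by decide +kernel
  have t21 : chevD4.cartan 0 21 = 1 ∧ chevD4.cartan 1 21 = 0 ∧ chevD4.cartan 2 21 = 1 ∧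
      chevD4.cartan 3 21 = -1 := by decide +kernel
  have key : u⁻¹ * φ u * φ (φ u) * d = 1 := by
    refine sq_inj hq hK ?_
    have e1 : φ u ^ 2 = φ (φ d⁻¹) * d⁻¹ := by rw [← map_pow, hu, map_mul, h3 hq hK]
    have e2 : φ (φ u) ^ 2 = d⁻¹ * φ d⁻¹ := by rw [← map_pow, e1, map_mul, h3 hq hK]
    rw [mul_pow, mul_pow, mul_pow, inv_pow, e1, e2, hu, one_pow]
    have h1 := phi_ne hq hK hd
    have h2 := phi_ne hq hK h1
    simp only [map_inv₀]
    field_simp
  have k2 := congrArg (fun x => φ x) key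
  have k3 := congrArg (fun x => φ (φ x)) key
  simp only [map_mul, map_inv₀, map_one, h3 hq hK] at k2 k3
  simp [t17, t20, t21, w]
  rw [key, show u * (φ u)⁻¹ * φ (φ u) * φ d = 1 by linear_combination k2,
    show u * φ u * (φ (φ u))⁻¹ * φ (φ d) = 1 by linear_combination k3]

theorem rep_f {f : K} (hf : φ f = f) (h : f ≠ 0) : ConjRep hq hK (Xf f) := by
  obtain ⟨k, hk, hc⟩ := torus_conj hq hK ![1, (Units.mk0 f h)⁻¹, 1, 1]
    (map_one _).symm (by simp [map_inv₀, hf]) (map_one _).symm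
  refine ⟨k, hk, Or.inl ?_⟩
  simp only [Xf, hc 23 (by omega)]
  have t : chevD4.cartan 1 23 = 1 := by decide +kernel
  congr 1
  simp [t, h]

theorem rep_e {e : K} (he : φ e = e) (h : e ≠ 0) : ConjRep hq hK (Xe e) :=
  ConjRep.of_conj hq hK (nn_mem hq hK 0) (nb_Xe hq hK e) (rep_f hq hK he h)

theorem exists_tr {f : K} (hf : φ f = f) : ∃ x, Tr3 φ x = f := by
  obtain ⟨x₀, hx₀⟩ : ∃ x₀, Tr3 φ x₀ ≠ 0 := by
    by_contra hall
    push Not at hall
    classical
    have h2 := hq.two_le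
    let p : Polynomial K := Polynomial.X ^ (q * q) + (Polynomial.X ^ q + Polynomial.X)
    have hdeg : p.natDegree ≤ q * q := by
      refine (Polynomial.natDegree_add_le _ _).trans (max_le (by simp) ?_)
      refine (Polynomial.natDegree_add_le _ _).trans (max_le (by simp; nlinarith) (by simp; nlinarith))
    have hne : p ≠ 0 := by
      intro h
      have := congrArg (fun r => Polynomial.coeff r 1) h
      simp [p, Polynomial.coeff_X_pow, show (1 : ℕ) ≠ q * q by nlinarith,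
        show (1 : ℕ) ≠ q by omega] at this
    have hroot : ∀ x : K, p.IsRoot x := fun x => by
      have := hall x
      simp only [Tr3, D4.phi_apply, ← pow_mul] at this
      simp only [p, Polynomial.IsRoot, Polynomial.eval_add, Polynomial.eval_pow, Polynomial.eval_X]
      linear_combination this
    have hsub : (Finset.univ : Finset K) ⊆ p.roots.toFinset := fun x _ =>
      Multiset.mem_toFinset.2 ((Polynomial.mem_roots hne).2 (hroot x))
    have := (Finset.card_le_card hsub).trans ((Multiset.toFinset_card_le _).trans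
      ((Polynomial.card_roots' p).trans hdeg))
    rw [Finset.card_univ, hK] at this
    have : q * q < q ^ 3 := by nlinarith
    omega
  refine ⟨f / Tr3 φ x₀ * x₀, ?_⟩
  have hl : φ (f / Tr3 φ x₀) = f / Tr3 φ x₀ := by rw [map_div₀, hf, Tr3_fixed]
  have key : ∀ r, φ r = r → Tr3 φ (r * x₀) = r * Tr3 φ x₀ := fun r hr => by
    simp only [Tr3, map_mul, hr]; ring
  calc Tr3 φ (f / Tr3 φ x₀ * x₀) = f / Tr3 φ x₀ * Tr3 φ x₀ := key _ hl
    _ = f := div_mul_cancel₀ f hx₀

theorem rep_df {d f : K} (hd : d ≠ 0) (hf : φ f = f) : ConjRep hq hK (P φ 0 0 0 d 0 f) := by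
  obtain ⟨x, hx⟩ := exists_tr hq hK hf
  refine ConjRep.of_conj hq hK (Xc_mem hq hK (x / d)).1 ?_ (rep_d hq hK hd)
  rw [inv_eq_of_mul_eq_one_right (Xc_mem hq hK (x / d)).2, conjc φ (h3 hq hK), mul_div_cancel₀ _ hd, hx,
    ← (P_single φ d).2.2.2.1]
  simp [S2, Tr3, CharTwo.add_self_eq_zero]

theorem rep_def {d e f : K} (hd : d ≠ 0) (he : φ e = e) (hf : φ f = f) :
    ConjRep hq hK (P φ 0 0 0 d e f) := by
  obtain ⟨x, hx⟩ := exists_tr hq hK he
  refine ConjRep.of_conj hq hK (Xa_mem hq hK (x / d)).1 ?_ (rep_df hq hK hd hf)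
  rw [inv_eq_of_mul_eq_one_right (Xa_mem hq hK (x / d)).2, conja φ (h3 hq hK) (map_zero _),
    mul_div_cancel₀ _ hd, hx]
  simp [S2, Tr3, CharTwo.add_self_eq_zero]

theorem rep_ef {e f : K} (he : φ e = e) (hf : φ f = f) (h : ¬ (e = 0 ∧ f = 0)) :
    ConjRep hq hK (P φ 0 0 0 0 e f) := by
  by_cases he0 : e = 0
  · subst he0
    rw [(P_single φ f).2.2.2.2.2]
    exact rep_f hq hK hf fun hf0 => h ⟨rfl, hf0⟩
  have ht : φ (f / e) = f / e := by rw [map_div₀, hf, he]
  refine ConjRep.of_conj hq hK (Xb_mem hq hK ht).1 ?_ (rep_e hq hK he he0)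
  rw [inv_eq_of_mul_eq_one_right (Xb_mem hq hK ht).2, conjb φ (h3 hq hK) _ _ _ _ _ _ ht,
    mul_div_cancel₀ _ he0, ← (P_single φ e).2.2.2.2.1]
  simp [Nm, Tr3, CharTwo.add_self_eq_zero]

theorem rep_cde {c d e f : K} (hc : c ≠ 0) (hcd : Tr3 φ (c * d) = 0) (he : φ e = e) (hf : φ f = f) :
    ConjRep hq hK (P φ 0 0 c d e f) := by
  have hc1 := phi_ne hq hK hc
  have hc2 := phi_ne hq hK hc1
  set t := c * d / (φ c * φ (φ c)) with ht
  have hd' : S2 φ c t + d = 0 := by
    have hsum : φ (c * d) + φ (φ (c * d)) = c * d := by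
      simp only [Tr3] at hcd
      linear_combination hcd - CharTwo.add_self_eq_zero (c * d)
    simp only [S2, ht, map_div₀, map_mul, h3 hq hK]
    field_simp
    simp only [map_mul] at hsum
    linear_combination hsum + CharTwo.add_self_eq_zero (c * d)
  refine ConjRep.of_conj hq hK (Xa_mem hq hK t).1
    (g' := P φ 0 0 c 0 (Tr3 φ (φ t * φ (φ t) * c) + Tr3 φ (d * t) + e)
      (Tr3 φ (φ c * φ (φ c) * t) + f)) ?_ ?_
  · rw [inv_eq_of_mul_eq_one_right (Xa_mem hq hK t).2, conja φ (h3 hq hK) (map_zero _)]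
    simp only [zero_mul, zero_add, hd']
  set e1 := Tr3 φ (φ t * φ (φ t) * c) + Tr3 φ (d * t) + e with he1
  set f1 := Tr3 φ (φ c * φ (φ c) * t) + f with hf1
  have he1' : φ e1 = e1 := by rw [he1, map_add, map_add, Tr3_fixed, Tr3_fixed, he]
  have hf1' : φ f1 = f1 := by rw [hf1, map_add, Tr3_fixed, hf]
  have hN : Nm φ c ≠ 0 := mul_ne_zero (mul_ne_zero hc hc1) hc2
  obtain ⟨l, hl⟩ := exists_sqrt hq hK (e1 / Nm φ c)
  have hlf : φ l = l := sq_inj hq hK (by rw [← map_pow, hl, map_div₀, he1', Nm_fixed])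
  refine ConjRep.of_conj hq hK (Xa_mem hq hK (l * c)).1 (g' := P φ 0 0 c 0 0
    (Tr3 φ (φ c * φ (φ c) * (l * c)) + f1)) ?_ ?_
  · rw [inv_eq_of_mul_eq_one_right (Xa_mem hq hK (l * c)).2, conja φ (h3 hq hK) (map_zero _)]
    have h1 : S2 φ c (l * c) = 0 := by
      simp only [S2, map_mul, hlf]
      linear_combination CharTwo.add_self_eq_zero (φ c * l * φ (φ c))
    have h2 : Tr3 φ (φ (l * c) * φ (φ (l * c)) * c) + e1 = 0 := by
      simp only [Tr3, map_mul, hlf, h3 hq hK]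
      have hm : l ^ 2 * Nm φ c = e1 := by rw [hl, div_mul_cancel₀ _ hN]
      rw [← hm, Nm]
      linear_combination (2 : K) * l ^ 2 * c * φ c * φ (φ c) * CharTwo.two_eq_zero (R := K)
    simp only [zero_mul, mul_zero, zero_add, add_zero, h1]
    have z : Tr3 φ (0 : K) = 0 := by simp [Tr3]
    simp only [z, add_zero, h2]
  have hfin : φ (Tr3 φ (φ c * φ (φ c) * (l * c)) + f1) = Tr3 φ (φ c * φ (φ c) * (l * c)) + f1 := by
    rw [map_add, Tr3_fixed, hf1']
  refine ConjRep.of_conj hq hK (nn_mem hq hK 1) ?_ (rep_df hq hK hc hfin)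
  show MulAut.conj (nn hq hK 1) _ = _
  simp only [P, map_mul, na_Xc, na_Xf]
  simp [Xa, Xb, Xc, Xd, Xe, Xf, X_zero]

theorem rep_zero_ba {c d e f : K} (hcd : Tr3 φ (c * d) = 0) (he : φ e = e) (hf : φ f = f)
    (h : ¬ (c = 0 ∧ d = 0 ∧ e = 0 ∧ f = 0)) : ConjRep hq hK (P φ 0 0 c d e f) := by
  by_cases hc : c = 0
  · subst hc
    by_cases hd : d = 0
    · subst hd; exact rep_ef hq hK he hf fun h' => h ⟨rfl, rfl, h'⟩
    · exact rep_def hq hK hd he hf
  · exact rep_cde hq hK hc hcd he hf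

theorem rep_b {b c d e f : K} (hb : b ≠ 0) (hbf : φ b = b) (he : φ e = e) (hf : φ f = f)
    (hsq : P φ b 0 c d e f * P φ b 0 c d e f = 1) : ConjRep hq hK (P φ b 0 c d e f) := by
  refine step hq hK (Xa_mem hq hK (c / b)).1 (Xa_mem hq hK (c / b)).2
    (conja φ (h3 hq hK) hbf c d e f (c / b)) hsq fun hsq' => ?_
  rw [mul_div_cancel₀ _ hb, CharTwo.add_self_eq_zero] at hsq' ⊢
  set d1 := b * φ (c / b) * φ (φ (c / b)) + S2 φ c (c / b) + d
  set e1 := b * Nm φ (c / b) + Tr3 φ (φ (c / b) * φ (φ (c / b)) * c) + Tr3 φ (d * (c / b)) + e with he1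
  set f1 := b * b * Nm φ (c / b) + b * Tr3 φ (φ (c / b) * φ (φ (c / b)) * c) +
    Tr3 φ (φ c * φ (φ c) * (c / b)) + f with hf1
  have hf1' : φ f1 = f1 := by
    simp only [hf1, map_add, map_mul, Tr3_fixed, Nm_fixed, hbf, hf]
  have he0 : e1 = 0 := by
    rw [P_sq φ (h3 hq hK) hbf, ← P_zero φ] at hsq'
    have := (P_inj φ hsq').2.2.2.2.2
    simp [Nm, Tr3] at this
    exact this.resolve_left hb
  rw [he0] at hsq' ⊢
  have ht : φ (f1 / b) = f1 / b := by rw [map_div₀, hf1', hbf]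
  refine ConjRep.of_conj hq hK (Xe_mem hq hK ht).1 (g' := P φ b 0 0 d1 0 0) ?_ ?_
  · rw [inv_eq_of_mul_eq_one_right (Xe_mem hq hK ht).2, conje φ (h3 hq hK), mul_div_cancel₀ _ hb,
      CharTwo.add_self_eq_zero]
  refine ConjRep.of_conj hq hK (nn_mem hq hK 1) (g' := P φ 0 0 d1 0 b 0) ?_
    (rep_zero_ba hq hK (by simp [Tr3]) hbf (map_zero _) fun h' => hb h'.2.2.1)
  show MulAut.conj (nn hq hK 1) _ = _
  have e1' : P φ b 0 0 d1 0 0 = Xb b * Xd φ d1 := by simp [P, Xa, Xb, Xc, Xd, Xe, Xf, X_zero]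
  rw [e1', map_mul, na_Xb, na_Xd, ← (P_single φ b).2.2.2.2.1, P_mulc φ (h3 hq hK)]
  simp [Tr3]

theorem rep_pos {b a c d e f : K} (hb : φ b = b) (he : φ e = e) (hf : φ f = f)
    (hne : P φ b a c d e f ≠ 1) (hsq : P φ b a c d e f * P φ b a c d e f = 1) :
    ConjRep hq hK (P φ b a c d e f) := by
  have hrel := hsq
  rw [P_sq φ (h3 hq hK) hb, ← P_zero φ] at hrel
  obtain ⟨-, -, hC, hD, -, hF⟩ := P_inj φ hrel
  by_cases ha : a = 0
  · subst ha
    by_cases hb0 : b = 0
    · subst hb0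
      refine rep_zero_ba hq hK (by simpa [Nm, Tr3] using hF) he hf ?_
      rintro ⟨rfl, rfl, rfl, rfl⟩
      exact hne (P_zero φ)
    · exact rep_b hq hK hb0 hb he hf hsq
  obtain rfl : b = 0 := (mul_eq_zero.1 hC).resolve_left ha
  have ha1 := phi_ne hq hK ha
  have ha2 := phi_ne hq hK ha1
  simp only [mul_zero, zero_add, S2, CharTwo.add_eq_zero] at hD
  set l := c / a with hl
  have hlf : φ l = l := by
    refine (φ).injective ?_
    rw [hl, map_div₀, map_div₀]
    field_simp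
    linear_combination hD
  refine step hq hK (Xb_mem hq hK hlf).1 (Xb_mem hq hK hlf).2
    (conjb φ (h3 hq hK) 0 a c d e f hlf) hsq fun hsq' => ?_
  rw [show a * l + c = 0 by rw [hl, mul_div_cancel₀ _ ha, CharTwo.add_self_eq_zero]] at hsq' ⊢
  set d1 := φ a * φ (φ a) * l + d
  set e1 := Nm φ a * l + e with he1
  set f1 := f + e * l + Tr3 φ (φ a * φ (φ a) * c) * l with hf1
  have he1' : φ e1 = e1 := by simp only [he1, map_add, map_mul, Nm_fixed, hlf, he]
  have hf1' : φ f1 = f1 := by simp only [hf1, map_add, map_mul, Tr3_fixed, hlf, he, hf]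
  have htr : Tr3 φ (a * d1) = 0 := by
    rw [P_sq φ (h3 hq hK) (map_zero _), ← P_zero φ] at hsq'
    have := (P_inj φ hsq').2.2.2.2.1
    simpa [Tr3, Nm] using this
  set t := a * d1 / (φ a * φ (φ a)) with ht
  have hd' : d1 + S2 φ a t = 0 := by
    have hsum : φ (a * d1) + φ (φ (a * d1)) = a * d1 := by
      simp only [Tr3] at htr
      linear_combination htr - CharTwo.add_self_eq_zero (a * d1)
    simp only [S2, ht, map_div₀, map_mul, h3 hq hK]
    field_simp
    simp only [map_mul] at hsum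
    linear_combination hsum + CharTwo.add_self_eq_zero (a * d1)
  set e2 := e1 + Tr3 φ (φ a * φ (φ a) * t) with he2
  set f2 := f1 + Tr3 φ (a * φ t * φ (φ t)) + Tr3 φ (d1 * t) with hf2
  have he2' : φ e2 = e2 := by rw [he2, map_add, Tr3_fixed, he1']
  have hf2' : φ f2 = f2 := by rw [hf2, map_add, map_add, Tr3_fixed, Tr3_fixed, hf1']
  refine ConjRep.of_conj hq hK (Xc_mem hq hK t).1 (g' := P φ 0 a 0 0 e2 f2) ?_ ?_
  · rw [inv_eq_of_mul_eq_one_right (Xc_mem hq hK t).2, conjc φ (h3 hq hK), hd']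
  refine ConjRep.of_conj hq hK (nn_mem hq hK 0) (g' := P φ 0 0 a 0 f2 e2) ?_
    (rep_zero_ba hq hK (by simp [Tr3]) hf2' he2' fun h' => ha h'.1)
  show MulAut.conj (nn hq hK 0) _ = _
  have e1' : P φ 0 a 0 0 e2 f2 = Xa φ a * Xe e2 * Xf f2 := by
    simp [P, Xa, Xb, Xc, Xd, Xe, Xf, X_zero, mul_assoc]
  rw [e1', map_mul, map_mul, nb_Xa, nb_Xe, nb_Xf, ← (P_single φ a).2.2.1, P_mulf φ (h3 hq hK),
    P_mule φ (h3 hq hK)]
  simp

theorem card_U1_index : ¬ 2 ∣ ((chevD4.posUnipotent K ⊓ G).subgroupOf G).index := by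
  haveI : Finite (GL chevD4.Idx K) := Sys.finite_GL
  set U := (chevD4.posUnipotent K ⊓ G).subgroupOf G
  have hc : Nat.card U = q ^ 12 := by
    rw [Nat.card_congr (Subgroup.subgroupOfEquivOfLe inf_le_right).toEquiv, D4.card_U1 hq hK]
  have h := U.card_mul_index
  rw [hc, D4.card_group hq hK, mul_assoc (q ^ 12), mul_assoc (q ^ 12)] at h
  have h' := Nat.eq_of_mul_eq_mul_left (pow_pos hq.pos 12) h
  rw [h']
  have h2 : 2 ∣ q := by
    obtain ⟨n, hn, e⟩ := FiniteField.card K 2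
    exact Nat.prime_two.dvd_of_dvd_pow (n := 3) (by rw [← hK, e]; exact dvd_pow_self 2 n.pos.ne')
  obtain ⟨r, rfl⟩ := h2
  have hr : 0 < r := by have := hq.pos; omega
  rw [Nat.two_dvd_ne_zero]
  have o1 : ((2 * r) ^ 2 - 1) % 2 = 1 := by
    have : (2 * r) ^ 2 = 2 * (2 * r * r) := by ring
    have : 0 < 2 * r * r := by positivity
    omega
  have o2 : ((2 * r) ^ 6 - 1) % 2 = 1 := by
    have : (2 * r) ^ 6 = 2 * (32 * r ^ 6) := by ring
    have : 0 < 32 * r ^ 6 := by positivity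
    omega
  have o3 : ((2 * r) ^ 8 + (2 * r) ^ 4 + 1) % 2 = 1 := by
    have : (2 * r) ^ 8 + (2 * r) ^ 4 = 2 * (128 * r ^ 8 + 8 * r ^ 4) := by ring
    omega
  simp [Nat.mul_mod, o1, o2, o3]

theorem conjRep_of_sq {g : GL chevD4.Idx K} (hg : g ∈ G) (h1 : g ≠ 1) (h2 : g * g = 1) :
    ConjRep hq hK g := by
  haveI : Fact (Nat.Prime 2) := ⟨Nat.prime_two⟩
  haveI : Finite (GL chevD4.Idx K) := Sys.finite_GL
  set U := (chevD4.posUnipotent K ⊓ G).subgroupOf G with hU
  have hp : IsPGroup 2 U := by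
    obtain ⟨n, -, hn⟩ := FiniteField.card K 2
    refine IsPGroup.of_card (n := (n : ℕ) * 4) ?_
    rw [Nat.card_congr (Subgroup.subgroupOfEquivOfLe inf_le_right).toEquiv, D4.card_U1 hq hK,
      show q ^ 12 = (q ^ 3) ^ 4 by ring, ← hK, hn, ← pow_mul]
  set T : Sylow 2 G := hp.toSylow (card_U1_index hq hK)
  set x : G := ⟨g, hg⟩
  have hx : IsPGroup 2 (Subgroup.zpowers x) := by
    refine IsPGroup.of_card (n := 1) ?_
    rw [Nat.card_zpowers, pow_one]
    exact orderOf_eq_prime (Subtype.ext (by rw [pow_two]; exact h2)) fun e => h1 (congrArg Subtype.val e)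
  obtain ⟨Q, hQ⟩ := hx.exists_le_sylow
  obtain ⟨k, hk⟩ := MulAction.exists_smul_eq G T Q
  have hm : x ∈ (Q : Subgroup G) := hQ (Subgroup.mem_zpowers x)
  rw [← hk, Sylow.coe_subgroup_smul, Subgroup.mem_pointwise_smul_iff_inv_smul_mem] at hm
  have e : ((MulAut.conj k)⁻¹ • x : G) = k⁻¹ * x * k := by simp
  rw [e] at hm
  obtain ⟨hm1, hm2⟩ : (k : GL chevD4.Idx K)⁻¹ * g * k ∈ chevD4.posUnipotent K ⊓ G := hm
  obtain ⟨b, a, c, d, e', f, hb, he, hf, heq⟩ := exists_P hq hK hm1 hm2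
  refine ConjRep.of_conj hq hK (k := (k : GL chevD4.Idx K)⁻¹) (inv_mem k.2) (by rw [inv_inv]; exact heq)
    (rep_pos hq hK hb he hf ?_ ?_)
  · intro e1
    apply h1
    rw [← heq] at e1
    have := congrArg (fun y => (k : GL chevD4.Idx K) * y * (k : GL chevD4.Idx K)⁻¹) e1
    simp only [mul_one, mul_inv_cancel] at this
    rw [← this]; group
  · rw [← heq]
    calc _ = (k : GL chevD4.Idx K)⁻¹ * (g * g) * k := by group
      _ = 1 := by rw [h2, mul_one, inv_mul_cancel]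

/-- The conjugates of the representative of the short class under `U`. -/
noncomputable def Y (α β : K) : GL chevD4.Idx K := X 17 1 * X 20 1 * X 21 1 * X 22 α * X 23 β

theorem Y_step (r : ℕ) (hr : 12 ≤ r) (hr' : r < 24) (t α β : K) :
    ∃ α' β', X r t * Y α β * X r t = Y α' β' := by
  interval_cases r
  · refine ⟨α + t, β, ext_tail fun Z => ?_⟩
    simp only [Y, mul_assoc, merge, R12_13, R12_14, R12_15, R12_16, R12_17, R12_18, R12_19, R12_20, R12_21, R12_22, R12_23, R13_14, R13_15, R13_16, R13_17, R13_18, R13_19, R13_20, R13_21, R13_22, R13_23, R14_15, R14_16, R14_17, R14_18, R14_19, R14_20, R14_21, R14_22, R14_23, R15_16, R15_17, R15_18, R15_19, R15_20, R15_21, R15_22, R15_23, R16_17, R16_18, R16_19, R16_20, R16_21, R16_22, R16_23, R17_18, R17_19, R17_20, R17_21, R17_22, R17_23, R18_19, R18_20, R18_21, R18_22, R18_23, R19_20, R19_21, R19_22, R19_23, R20_21, R20_22, R20_23, R21_22, R21_23, R22_23, one_mul, mul_one, CharTwo.add_self_eq_zero,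 X_zero]
    try ring_nf
    try simp only [CharTwo.two_eq_zero, mul_zero, add_zero, zero_add, X_zero, one_mul, mul_one]
    try ring_nf
  · refine ⟨α + t, β, ext_tail fun Z => ?_⟩
    simp only [Y, mul_assoc, merge, R12_13, R12_14, R12_15, R12_16, R12_17, R12_18, R12_19, R12_20, R12_21, R12_22, R12_23, R13_14, R13_15, R13_16, R13_17, R13_18, R13_19, R13_20, R13_21, R13_22, R13_23, R14_15, R14_16, R14_17, R14_18, R14_19, R14_20, R14_21, R14_22, R14_23, R15_16, R15_17, R15_18, R15_19, R15_20, R15_21, R15_22, R15_23, R16_17, R16_18, R16_19, R16_20, R16_21, R16_22, R16_23, R17_18, R17_19, R17_20, R17_21, R17_22, R17_23, R18_19, R18_20, R18_21, R18_22, R18_23, R19_20, R19_21, R19_22, R19_23, R20_21, R20_22, R20_23, R21_22, R21_23, R22_23, one_mul, mul_one, CharTwo.add_self_eq_zero, X_zero]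
    try ring_nf
    try simp only [CharTwo.two_eq_zero, mul_zero, add_zero, zero_add, X_zero, one_mul, mul_one]
    try ring_nf
  · refine ⟨α, α * t + β, ext_tail fun Z => ?_⟩
    simp only [Y, mul_assoc, merge, R12_13, R12_14, R12_15, R12_16, R12_17, R12_18, R12_19, R12_20, R12_21, R12_22, R12_23, R13_14, R13_15, R13_16, R13_17, R13_18, R13_19, R13_20, R13_21, R13_22, R13_23, R14_15, R14_16, R14_17, R14_18, R14_19, R14_20, R14_21, R14_22, R14_23, R15_16, R15_17, R15_18, R15_19, R15_20, R15_21, R15_22, R15_23, R16_17, R16_18, R16_19, R16_20, R16_21, R16_22, R16_23, R17_18, R17_19, R17_20, R17_21, R17_22, R17_23, R18_19, R18_20, R18_21, R18_22, R18_23, R19_20, R19_21, R19_22, R19_23, R20_21, R20_22, R20_23, R21_22, R21_23, R22_23, one_mul, mul_one, CharTwo.add_self_eq_zero, X_zero]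
    try ring_nf
    try simp only [CharTwo.two_eq_zero, mul_zero, add_zero, zero_add, X_zero, one_mul, mul_one]
    try ring_nf
  · refine ⟨α, β + t, ext_tail fun Z => ?_⟩
    simp only [Y, mul_assoc, merge, R12_13, R12_14, R12_15, R12_16, R12_17, R12_18, R12_19, R12_20, R12_21, R12_22, R12_23, R13_14, R13_15, R13_16, R13_17, R13_18, R13_19, R13_20, R13_21, R13_22, R13_23, R14_15, R14_16, R14_17, R14_18, R14_19, R14_20, R14_21, R14_22, R14_23, R15_16, R15_17, R15_18, R15_19, R15_20, R15_21, R15_22, R15_23, R16_17, R16_18, R16_19, R16_20, R16_21, R16_22, R16_23, R17_18, R17_19, R17_20, R17_21, R17_22, R17_23, R18_19, R18_20, R18_21, R18_22, R18_23, R19_20, R19_21, R19_22, R19_23, R20_21, R20_22, R20_23, R21_22, R21_23, R22_23, one_mul, mul_one, CharTwo.add_self_eq_zero, X_zero]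
    try ring_nf
    try simp only [CharTwo.two_eq_zero, mul_zero, add_zero, zero_add, X_zero, one_mul, mul_one]
    try ring_nf
  · refine ⟨α, β + t, ext_tail fun Z => ?_⟩
    simp only [Y, mul_assoc, merge, R12_13, R12_14, R12_15, R12_16, R12_17, R12_18, R12_19, R12_20, R12_21, R12_22, R12_23, R13_14, R13_15, R13_16, R13_17, R13_18, R13_19, R13_20, R13_21, R13_22, R13_23, R14_15, R14_16, R14_17, R14_18, R14_19, R14_20, R14_21, R14_22, R14_23, R15_16, R15_17, R15_18, R15_19, R15_20, R15_21, R15_22, R15_23, R16_17, R16_18, R16_19, R16_20, R16_21, R16_22, R16_23, R17_18, R17_19, R17_20, R17_21, R17_22, R17_23, R18_19, R18_20, R18_21, R18_22, R18_23, R19_20, R19_21, R19_22, R19_23, R20_21, R20_22, R20_23, R21_22, R21_23, R22_23, one_mul, mul_one, CharTwo.add_self_eq_zero, X_zero]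
    try ring_nf
    try simp only [CharTwo.two_eq_zero, mul_zero, add_zero, zero_add, X_zero, one_mul, mul_one]
    try ring_nf
  · refine ⟨α, β, ext_tail fun Z => ?_⟩
    simp only [Y, mul_assoc, merge, R12_13, R12_14, R12_15, R12_16, R12_17, R12_18, R12_19, R12_20, R12_21, R12_22, R12_23, R13_14, R13_15, R13_16, R13_17, R13_18, R13_19, R13_20, R13_21, R13_22, R13_23, R14_15, R14_16, R14_17, R14_18, R14_19, R14_20, R14_21, R14_22, R14_23, R15_16, R15_17, R15_18, R15_19, R15_20, R15_21, R15_22, R15_23, R16_17, R16_18, R16_19, R16_20, R16_21, R16_22, R16_23, R17_18, R17_19, R17_20, R17_21, R17_22, R17_23, R18_19, R18_20, R18_21, R18_22, R18_23, R19_20, R19_21, R19_22, R19_23, R20_21, R20_22, R20_23, R21_22, R21_23, R22_23, one_mul, mul_one, CharTwo.add_self_eq_zero, X_zero]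
    try ring_nf
    try simp only [CharTwo.two_eq_zero, mul_zero, add_zero, zero_add, X_zero, one_mul, mul_one]
    try ring_nf
  · refine ⟨α + t, β, ext_tail fun Z => ?_⟩
    simp only [Y, mul_assoc, merge, R12_13, R12_14, R12_15, R12_16, R12_17, R12_18, R12_19, R12_20, R12_21, R12_22, R12_23, R13_14, R13_15, R13_16, R13_17, R13_18, R13_19, R13_20, R13_21, R13_22, R13_23, R14_15, R14_16, R14_17, R14_18, R14_19, R14_20, R14_21, R14_22, R14_23, R15_16, R15_17, R15_18, R15_19, R15_20, R15_21, R15_22, R15_23, R16_17, R16_18, R16_19, R16_20, R16_21, R16_22, R16_23, R17_18, R17_19, R17_20, R17_21, R17_22, R17_23, R18_19, R18_20, R18_21, R18_22, R18_23, R19_20, R19_21, R19_22, R19_23, R20_21, R20_22, R20_23, R21_22, R21_23, R22_23, one_mul, mul_one, CharTwo.add_self_eq_zero, X_zero]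
    try ring_nf
    try simp only [CharTwo.two_eq_zero, mul_zero, add_zero, zero_add, X_zero, one_mul, mul_one]
    try ring_nf
  · refine ⟨α, β + t, ext_tail fun Z => ?_⟩
    simp only [Y, mul_assoc, merge, R12_13, R12_14, R12_15, R12_16, R12_17, R12_18, R12_19, R12_20, R12_21, R12_22, R12_23, R13_14, R13_15, R13_16, R13_17, R13_18, R13_19, R13_20, R13_21, R13_22, R13_23, R14_15, R14_16, R14_17, R14_18, R14_19, R14_20, R14_21, R14_22, R14_23, R15_16, R15_17, R15_18, R15_19, R15_20, R15_21, R15_22, R15_23, R16_17, R16_18, R16_19, R16_20, R16_21, R16_22, R16_23, R17_18, R17_19, R17_20, R17_21, R17_22, R17_23, R18_19, R18_20, R18_21, R18_22, R18_23, R19_20, R19_21, R19_22, R19_23, R20_21, R20_22, R20_23, R21_22, R21_23, R22_23, one_mul, mul_one, CharTwo.add_self_eq_zero, X_zero]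
    try ring_nf
    try simp only [CharTwo.two_eq_zero, mul_zero, add_zero, zero_add, X_zero, one_mul, mul_one]
    try ring_nf
  · refine ⟨α, β, ext_tail fun Z => ?_⟩
    simp only [Y, mul_assoc, merge, R12_13, R12_14, R12_15, R12_16, R12_17, R12_18, R12_19, R12_20, R12_21, R12_22, R12_23, R13_14, R13_15, R13_16, R13_17, R13_18, R13_19, R13_20, R13_21, R13_22, R13_23, R14_15, R14_16, R14_17, R14_18, R14_19, R14_20, R14_21, R14_22, R14_23, R15_16, R15_17, R15_18, R15_19, R15_20, R15_21, R15_22, R15_23, R16_17, R16_18, R16_19, R16_20, R16_21, R16_22, R16_23, R17_18, R17_19, R17_20, R17_21, R17_22, R17_23, R18_19, R18_20, R18_21, R18_22, R18_23, R19_20, R19_21, R19_22, R19_23, R20_21, R20_22, R20_23, R21_22, R21_23, R22_23, one_mul, mul_one, CharTwo.add_self_eq_zero, X_zero]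
    try ring_nf
    try simp only [CharTwo.two_eq_zero, mul_zero, add_zero, zero_add, X_zero, one_mul, mul_one]
    try ring_nf
  · refine ⟨α, β, ext_tail fun Z => ?_⟩
    simp only [Y, mul_assoc, merge, R12_13, R12_14, R12_15, R12_16, R12_17, R12_18, R12_19, R12_20, R12_21, R12_22, R12_23, R13_14, R13_15, R13_16, R13_17, R13_18, R13_19, R13_20, R13_21, R13_22, R13_23, R14_15, R14_16, R14_17, R14_18, R14_19, R14_20, R14_21, R14_22, R14_23, R15_16, R15_17, R15_18, R15_19, R15_20, R15_21, R15_22, R15_23, R16_17, R16_18, R16_19, R16_20, R16_21, R16_22, R16_23, R17_18, R17_19, R17_20, R17_21, R17_22, R17_23, R18_19, R18_20, R18_21, R18_22, R18_23, R19_20, R19_21, R19_22, R19_23, R20_21, R20_22, R20_23, R21_22, R21_23, R22_23, one_mul, mul_one, CharTwo.add_self_eq_zero, X_zero]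
    try ring_nf
    try simp only [CharTwo.two_eq_zero, mul_zero, add_zero, zero_add, X_zero, one_mul, mul_one]
    try ring_nf
  · refine ⟨α, β, ext_tail fun Z => ?_⟩
    simp only [Y, mul_assoc, merge, R12_13, R12_14, R12_15, R12_16, R12_17, R12_18, R12_19, R12_20, R12_21, R12_22, R12_23, R13_14, R13_15, R13_16, R13_17, R13_18, R13_19, R13_20, R13_21, R13_22, R13_23, R14_15, R14_16, R14_17, R14_18, R14_19, R14_20, R14_21, R14_22, R14_23, R15_16, R15_17, R15_18, R15_19, R15_20, R15_21, R15_22, R15_23, R16_17, R16_18, R16_19, R16_20, R16_21, R16_22, R16_23, R17_18, R17_19, R17_20, R17_21, R17_22, R17_23, R18_19, R18_20, R18_21, R18_22, R18_23, R19_20, R19_21, R19_22, R19_23, R20_21, R20_22, R20_23, R21_22, R21_23, R22_23, one_mul, mul_one, CharTwo.add_self_eq_zero, X_zero]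
    try ring_nf
    try simp only [CharTwo.two_eq_zero, mul_zero, add_zero, zero_add, X_zero, one_mul, mul_one]
    try ring_nf
  · refine ⟨α, β, ext_tail fun Z => ?_⟩
    simp only [Y, mul_assoc, merge, R12_13, R12_14, R12_15, R12_16, R12_17, R12_18, R12_19, R12_20, R12_21, R12_22, R12_23, R13_14, R13_15, R13_16, R13_17, R13_18, R13_19, R13_20, R13_21, R13_22, R13_23, R14_15, R14_16, R14_17, R14_18, R14_19, R14_20, R14_21, R14_22, R14_23, R15_16, R15_17, R15_18, R15_19, R15_20, R15_21, R15_22, R15_23, R16_17, R16_18, R16_19, R16_20, R16_21, R16_22, R16_23, R17_18, R17_19, R17_20, R17_21, R17_22, R17_23, R18_19, R18_20, R18_21, R18_22, R18_23, R19_20, R19_21, R19_22, R19_23, R20_21, R20_22, R20_23, R21_22, R21_23, R22_23, one_mul, mul_one, CharTwo.add_self_eq_zero, X_zero]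
    try ring_nf
    try simp only [CharTwo.two_eq_zero, mul_zero, add_zero, zero_add, X_zero, one_mul, mul_one]
    try ring_nf

theorem conj_Y {v : GL chevD4.Idx K} (hv : v ∈ chevD4.posUnipotent K) :
    ∀ α β : K, ∃ α' β', v * Y α β * v⁻¹ = Y α' β' := by
  have hinv : ∀ r t, (X r t : GL chevD4.Idx K)⁻¹ = X r t := fun r t => by
    simp [X, Sys.xU_inv, CharTwo.neg_eq]
  rw [sysD4.posUnipotent_eq, Sys.tailU] at hv
  induction hv using Subgroup.closure_induction'' with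
  | one => intro α β; exact ⟨α, β, by simp⟩
  | mem z hz =>
    obtain ⟨r, t, h1, h2, rfl⟩ := hz
    intro α β
    obtain ⟨α', β', e⟩ := Y_step hq hK r h1 h2 t α β
    exact ⟨α', β', by rw [hinv]; exact e⟩
  | inv_mem z hz =>
    obtain ⟨r, t, h1, h2, rfl⟩ := hz
    intro α β
    obtain ⟨α', β', e⟩ := Y_step hq hK r h1 h2 t α β
    exact ⟨α', β', by rw [inv_inv, hinv]; exact e⟩
  | mul z z' _ _ ih ih' =>
    intro α β
    obtain ⟨α₁, β₁, e1⟩ := ih' α β
    obtain ⟨α₂, β₂, e2⟩ := ih α₁ β₁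
    exact ⟨α₂, β₂, by rw [← e2, ← e1]; group⟩

theorem single_prodFrom (r : ℕ) (hr : 12 ≤ r) (hr' : r < 24) (s : K) :
    X r s = sysD4.prodFrom (fun i => if i = r then s else 0) 12 := by
  rw [Sys.prodFrom, show chevD4.nroots - 12 = 12 from rfl]
  interval_cases r <;> simp [Sys.wU, List.range'_succ, X]

/-- The representatives are not conjugate, even in `D₄(q³)`. -/
theorem not_conj {h : GL chevD4.Idx K} (hh : h ∈ chevD4.group K) : h * Xf 1 * h⁻¹ ≠ Xd φ 1 := by
  intro e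
  obtain ⟨b, hb, n, hn, b', hb', rfl⟩ := sysD4.exists_bnb hh
  obtain ⟨u₁, hu₁, h₁, hh₁, rfl⟩ := sysD4.mem_borel_iff.1 hb
  obtain ⟨h₂, hh₂, u₃, hu₃, rfl⟩ := sysD4.mem_borel_right hb'
  have hm : h₁ * n * h₂ ∈ chevD4.monomialSubgroup K :=
    mul_mem (mul_mem (sysD4.diag_le_mono hh₁) hn) (sysD4.diag_le_mono hh₂)
  obtain ⟨w, -, hw⟩ := sysD4.exists_acts hm
  obtain ⟨s, hs⟩ := hw (23 : Fin 24)
  have hu : u₃ * X 23 1 * u₃⁻¹ = X 23 1 := by
    have h' := Subgroup.mem_centralizer_singleton_iff.1 (sysD4.pos_comm_top (by decide) (1 : K) hu₃)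
    rw [show sysD4.xU (chevD4.nroots - 1) (1 : K) = X 23 1 from rfl] at h'
    rw [h', mul_inv_cancel_right]
  obtain ⟨α, β, e1⟩ := conj_Y hq hK (inv_mem hu₁) 0 0
  have hXd : Xd φ (1 : K) = Y 0 0 := by simp [Xd, Y, X_zero]
  set r : ℕ := ((w (23 : Fin 24) : Fin chevD4.nroots) : ℕ) with hr
  have key : X r ((s : K) * 1) = Y α β := by
    rw [← e1, ← hXd, ← e, inv_inv]
    show sysD4.xU r ((s : K) * 1) = _
    rw [hr, ← hs 1]
    show h₁ * n * h₂ * X 23 (1 : K) * (h₁ * n * h₂)⁻¹ = _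
    conv_lhs => rw [← hu]
    simp only [Xf]
    group
  have hY : Y α β = sysD4.prodFrom
      (fun i => [0, 0, 0, 0, 0, 1, 0, 0, 1, 1, α, β].getD (i - 12) 0) 12 := by
    rw [prodFrom_list]; simp [Y, X_zero]
  have hlt : r < 24 := (w (23 : Fin 24)).2
  have hr12 : 12 ≤ r := sysD4.pos_of_xU_mem (show r < chevD4.nroots from hlt)
    (mul_ne_zero s.ne_zero one_ne_zero) (by
      show X r _ ∈ _
      rw [key, hY, sysD4.posUnipotent_eq]; exact sysD4.prodFrom_mem _ _)
  rw [single_prodFrom hq hK r hr12 hlt, hY] at key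
  have k17 := sysD4.prodFrom_inj (show chevD4.nroots / 2 ≤ 12 from le_rfl) key 17 (by omega) (by decide)
  have k20 := sysD4.prodFrom_inj (show chevD4.nroots / 2 ≤ 12 from le_rfl) key 20 (by omega) (by decide)
  by_cases h17 : 17 = r
  · rw [if_neg (show ¬ 20 = r by omega)] at k20
    exact zero_ne_one (α := K) (by simpa using k20)
  · rw [if_neg h17] at k17
    exact zero_ne_one (α := K) (by simpa using k17)

/-- Exactly two classes of involutions. -/
theorem class_count :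
    (ConjClasses.mk '' {g : G | orderOf g = 2}).ncard = 2 := by
  haveI : Fact (Nat.Prime 2) := ⟨Nat.prime_two⟩
  set x : G := ⟨Xf 1, Xf_mem hq hK (map_one _)⟩
  set y : G := ⟨Xd φ 1, Xd_mem hq hK 1⟩
  have hx : orderOf x = 2 := by
    refine orderOf_eq_prime (Subtype.ext ?_) fun e => ?_
    · show (Xf (1 : K)) ^ 2 = 1
      rw [pow_two, Xf, X_add, CharTwo.add_self_eq_zero, X_zero]
    · have e' : Xf (1 : K) = 1 := congrArg Subtype.val e
      rw [← (P_single φ (1 : K)).2.2.2.2.2, ← P_zero φ] at e'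
      exact one_ne_zero (P_inj φ e').2.2.2.2.2
  have hy : orderOf y = 2 := by
    refine orderOf_eq_prime (Subtype.ext ?_) fun e => ?_
    · show (Xd φ (1 : K)) ^ 2 = 1
      conv_lhs => rw [pow_two]; arg 1; rw [← (P_single φ (1 : K)).2.2.2.1]
      rw [P_muld φ (h3 hq hK), CharTwo.add_self_eq_zero, P_zero]
    · have e' : Xd φ (1 : K) = 1 := congrArg Subtype.val e
      rw [← (P_single φ (1 : K)).2.2.2.1, ← P_zero φ] at e'
      exact one_ne_zero (P_inj φ e').2.2.2.1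
  rw [show ConjClasses.mk '' {g : G | orderOf g = 2} = {ConjClasses.mk x, ConjClasses.mk y} from ?_,
    Set.ncard_pair]
  · intro e
    obtain ⟨k, hk⟩ := isConj_iff.1 (ConjClasses.mk_eq_mk_iff_isConj.1 e)
    refine not_conj hq hK (show (k : GL chevD4.Idx K) ∈ chevD4.group K from ?_) (congrArg Subtype.val hk)
    exact (Subgroup.closure_le _).2 (by
      rintro g ⟨w, -, hg⟩
      rw [show g = sysD4.wU w from Units.ext (hg.trans (sysD4.coe_wU _).symm)]
      exact sysD4.wU_mem_group _) k.2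
  · refine Set.eq_of_subset_of_subset ?_ ?_
    · rintro _ ⟨g, hg, rfl⟩
      have hg1 : (g : GL chevD4.Idx K) ≠ 1 := fun e => by
        rw [show g = 1 from Subtype.ext e] at hg
        simp at hg
      have hg2 : (g : GL chevD4.Idx K) * g = 1 := by
        have h := pow_orderOf_eq_one g
        rw [show orderOf g = 2 from hg, pow_two] at h
        exact congrArg Subtype.val h
      obtain ⟨h, hh, e | e⟩ := conjRep_of_sq hq hK g.2 hg1 hg2
      · exact Or.inl (ConjClasses.mk_eq_mk_iff_isConj.2 (isConj_iff.2 ⟨⟨h, hh⟩, Subtype.ext e⟩))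
      · exact Or.inr (ConjClasses.mk_eq_mk_iff_isConj.2 (isConj_iff.2 ⟨⟨h, hh⟩, Subtype.ext e⟩))
    · rintro _ (rfl | rfl)
      · exact ⟨x, hx, rfl⟩
      · exact ⟨y, hy, rfl⟩

end CfsgLib.Chev.D4Even
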