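import Cfsg.Agent.Chev.D4Even.Rules
import Cfsg.Agent.Chev.Twisted.D4

/-!
# Normal forms in the unipotent group of `³D₄(q)`, `q` even

The six relative root elements `Xb, Xa, Xc, Xd, Xe, Xf` of the roots `b, a, a+b, 2a+b, 3a+b, 3a+2b`.
-/

set_option autoImplicit false
set_option linter.unusedSectionVars false
set_option maxRecDepth 100000

namespace CfsgLib.Chev.D4Even

open Cfsg.Lie CfsgLib.Chev Matrix
open scoped List

universe u

variable {K : Type u} [Field K] [CharP K 2] (φ : K →+* K)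

/-- The root element of `b`. -/
noncomputable def Xb (t : K) : GL chevD4.Idx K := X 14 t
/-- The root element of `a`. -/
noncomputable def Xa (t : K) : GL chevD4.Idx K := X 18 t * X 13 (φ t) * X 12 (φ (φ t))
/-- The root element of `a + b`. -/
noncomputable def Xc (t : K) : GL chevD4.Idx K := X 19 t * X 16 (φ t) * X 15 (φ (φ t))
/-- The root element of `2a + b`. -/
noncomputable def Xd (t : K) : GL chevD4.Idx K := X 17 t * X 20 (φ t) * X 21 (φ (φ t))
/-- The root element of `3a + b`. -/
noncomputable def Xe (t : K) : GL chevD4.Idx K := X 22 t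
/-- The root element of `3a + 2b`. -/
noncomputable def Xf (t : K) : GL chevD4.Idx K := X 23 t

/-- The sum of the three conjugates. -/
def Tr3 (x : K) : K := x + φ x + φ (φ x)
/-- The product of the three conjugates. -/
def Nm (x : K) : K := x * φ x * φ (φ x)
/-- The symmetric pairing. -/
def S2 (x y : K) : K := φ x * φ (φ y) + φ (φ x) * φ y

/-- The normal form. -/
noncomputable def P (b a c d e f : K) : GL chevD4.Idx K :=
  Xb b * Xa φ a * Xc φ c * Xd φ d * Xe e * Xf f

theorem nums : (3 : K) = 1 ∧ (4 : K) = 0 ∧ (5 : K) = 1 ∧ (6 : K) = 0 ∧ (7 : K) = 1 ∧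
    (8 : K) = 0 ∧ (9 : K) = 1 := by
  have h : (2 : K) = 0 := CharTwo.two_eq_zero
  refine ⟨?_, ?_, ?_, ?_, ?_, ?_, ?_⟩
  · linear_combination h
  · linear_combination 2 * h
  · linear_combination 2 * h
  · linear_combination 3 * h
  · linear_combination 3 * h
  · linear_combination 4 * h
  · linear_combination 4 * h

local macro "collect" : tactic => `(tactic| (
  refine ext_tail fun Z => ?_
  simp only [P, Xb, Xa, Xc, Xd, Xe, Xf, Tr3, Nm, S2, mul_assoc, merge, R12_13, R12_14, R12_15, R12_16, R12_17, R12_18, R12_19, R12_20, R12_21, R12_22, R12_23, R13_14, R13_15, R13_16, R13_17, R13_18, R13_19, R13_20, R13_21, R13_22, R13_23, R14_15, R14_16, R14_17, R14_18, R14_19, R14_20, R14_21, R14_22, R14_23, R15_16, R15_17, R15_18, R15_19, R15_20, R15_21, R15_22, R15_23, R16_17, R16_18, R16_19, R16_20, R16_21, R16_22, R16_23, R17_18, R17_19, R17_20, R17_21, R17_22, R17_23, R18_19, R18_20, R18_21, R18_22, R18_23, R19_20, R19_21, R19_22, R19_23, R20_21, R20_22, R20_23, R21_22, R21_23,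 R22_23, map_add, map_mul,
    map_pow, map_zero, mul_zero, zero_mul, add_zero, zero_add, X_zero, one_mul, mul_one, *]
  all_goals (try ring_nf)
  all_goals (try simp only [CharTwo.two_eq_zero, nums, mul_zero, zero_mul, add_zero, zero_add, X_zero,
    one_mul, mul_one])
  all_goals (try ring_nf)))

variable (h3 : ∀ x, φ (φ (φ x)) = x)
include h3

theorem P_mulf (b a c d e f t : K) : P φ b a c d e f * Xf t = P φ b a c d e (f + t) := by
  collect

theorem P_mule (b a c d e f t : K) : P φ b a c d e f * Xe t = P φ b a c d (e + t) f := by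
  collect

theorem P_muld (b a c d e f t : K) : P φ b a c d e f * Xd φ t = P φ b a c (d + t) e f := by
  collect

theorem P_mulc (b a c d e f t : K) :
    P φ b a c d e f * Xc φ t = P φ b a (c + t) d e (f + Tr3 φ (d * t)) := by
  collect

theorem P_mula (b a c d e f t : K) :
    P φ b a c d e f * Xa φ t = P φ b (a + t) c (d + S2 φ c t)
      (e + Tr3 φ (c * φ t * φ (φ t)) + Tr3 φ (d * t)) (f + Tr3 φ (φ c * φ (φ c) * t)) := by
  collect

theorem P_mulb (b a c d e f : K) {t : K} (ht : φ t = t) :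
    P φ b a c d e f * Xb t = P φ (b + t) a (c + a * t) (d + φ a * φ (φ a) * t) (e + Nm φ a * t)
      (f + Tr3 φ (φ a * φ (φ a) * c) * t + e * t) := by
  collect

/-- The square of a normal form. -/
theorem P_sq {b : K} (hb : φ b = b) (a c d e f : K) :
    P φ b a c d e f * P φ b a c d e f = P φ 0 0 (a * b) (φ a * φ (φ a) * b + S2 φ a c)
      (Nm φ a * b + Tr3 φ (φ a * φ (φ a) * c) + Tr3 φ (a * d))
      (Nm φ a * b * b + Tr3 φ (a * φ c * φ (φ c)) + b * e + Tr3 φ (c * d)) := by
  collect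

theorem conjb (b a c d e f : K) {t : K} (ht : φ t = t) :
    Xb t * P φ b a c d e f * Xb t = P φ b a (a * t + c) (φ a * φ (φ a) * t + d) (Nm φ a * t + e)
      (f + e * t + Tr3 φ (φ a * φ (φ a) * c) * t) := by
  collect

theorem conja {b : K} (hb : φ b = b) (c d e f t : K) :
    Xa φ t * P φ b 0 c d e f * Xa φ t = P φ b 0 (b * t + c) (b * φ t * φ (φ t) + S2 φ c t + d)
      (b * Nm φ t + Tr3 φ (φ t * φ (φ t) * c) + Tr3 φ (d * t) + e)
      (b * b * Nm φ t + b * Tr3 φ (φ t * φ (φ t) * c) + Tr3 φ (φ c * φ (φ c) * t) + f) := by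
  collect

theorem conje (b c d e f t : K) :
    Xe t * P φ b 0 c d e f * Xe t = P φ b 0 c d e (f + b * t) := by
  collect

theorem conjc (a d e f t : K) :
    Xc φ t * P φ 0 a 0 d e f * Xc φ t = P φ 0 a 0 (d + S2 φ a t) (e + Tr3 φ (φ a * φ (φ a) * t))
      (f + Tr3 φ (a * φ t * φ (φ t)) + Tr3 φ (d * t)) := by
  collect

omit h3

/-- The coefficients of a normal form, by the index of the root. -/
def coords (b a c d e f : K) : List K :=
  [φ (φ a), φ a, b, φ (φ a) * b + φ (φ c), φ a * b + φ c, φ a * φ (φ a) * b + d, a, c,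
    a * φ (φ c) + φ d, a * φ c + φ (φ d), a * d + e, a * φ c * φ (φ c) + c * d + f]

/-- The twelve roots. -/
theorem prodFrom_list (v : List K) :
    sysD4.prodFrom (fun r => v.getD (r - 12) 0) 12 =
      X 12 (v.getD 0 0) * X 13 (v.getD 1 0) * X 14 (v.getD 2 0) * X 15 (v.getD 3 0) *
        X 16 (v.getD 4 0) * X 17 (v.getD 5 0) * X 18 (v.getD 6 0) * X 19 (v.getD 7 0) *
        X 20 (v.getD 8 0) * X 21 (v.getD 9 0) * X 22 (v.getD 10 0) * X 23 (v.getD 11 0) := by
  rw [Sys.prodFrom, show chevD4.nroots - 12 = 12 from rfl]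
  simp [Sys.wU, List.range'_succ, mul_assoc]

theorem P_eq_prodFrom (b a c d e f : K) :
    P φ b a c d e f = sysD4.prodFrom (fun r => (coords φ b a c d e f).getD (r - 12) 0) 12 := by
  rw [prodFrom_list]
  simp only [coords, List.getD_cons_zero, List.getD_cons_succ]
  collect

theorem P_inj {b a c d e f b' a' c' d' e' f' : K}
    (h : P φ b a c d e f = P φ b' a' c' d' e' f') :
    b = b' ∧ a = a' ∧ c = c' ∧ d = d' ∧ e = e' ∧ f = f' := by
  rw [P_eq_prodFrom, P_eq_prodFrom] at h
  have key := fun r h1 h2 => sysD4.prodFrom_inj (show chevD4.nroots / 2 ≤ 12 from le_rfl) h r h1 h2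
  have h14 := key 14 (by omega) (by decide)
  have h18 := key 18 (by omega) (by decide)
  have h19 := key 19 (by omega) (by decide)
  have h17 := key 17 (by omega) (by decide)
  have h22 := key 22 (by omega) (by decide)
  have h23 := key 23 (by omega) (by decide)
  simp [coords] at h14 h18 h19 h17 h22 h23
  subst h14 h18 h19
  have hd : d = d' := by linear_combination h17
  subst hd
  exact ⟨rfl, rfl, rfl, rfl, by linear_combination h22, by linear_combination h23⟩

theorem P_zero : P φ (0 : K) 0 0 0 0 0 = 1 := by simp [P, Xb, Xa, Xc, Xd, Xe, Xf, X_zero]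

theorem P_single (t : K) :
    P φ t 0 0 0 0 0 = Xb t ∧ P φ 0 t 0 0 0 0 = Xa φ t ∧ P φ 0 0 t 0 0 0 = Xc φ t ∧
    P φ 0 0 0 t 0 0 = Xd φ t ∧ P φ 0 0 0 0 t 0 = Xe t ∧ P φ 0 0 0 0 0 t = Xf t := by
  refine ⟨?_, ?_, ?_, ?_, ?_, ?_⟩ <;> simp [P, Xb, Xa, Xc, Xd, Xe, Xf, X_zero]

theorem P_mem (b a c d e f : K) : P φ b a c d e f ∈ chevD4.posUnipotent K := by
  rw [P_eq_prodFrom, sysD4.posUnipotent_eq]
  exact sysD4.prodFrom_mem _ _

open Twisted in
include h3 in
theorem sigma_P {b e f : K} (hb : φ b = b) (he : φ e = e) (hf : φ f = f) (a c d : K) :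
    D4.graph.sigma φ (P φ b a c d e f) = P φ b a c d e f := by
  have hx : ∀ r < 24, ∀ t : K, D4.graph.sigma φ (X r t) = X (D4.rhoL.getD r 0) (φ t) := by
    intro r hr t
    show D4.graph.sigma φ (sysD4.xU r t) = _
    rw [D4.graph.sigma_xU sysD4 φ (show r < chevD4.nroots from hr)]
    rcases D4.graph.eps_unit r (show r < chevD4.nroots from hr) with h | h <;>
      rw [h] <;> simp [CharTwo.neg_eq] <;> rfl
  simp only [P, Xb, Xa, Xc, Xd, Xe, Xf, map_mul]
  simp only [hx 14 (by omega), hx 18 (by omega), hx 13 (by omega), hx 12 (by omega),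
    hx 19 (by omega), hx 16 (by omega), hx 15 (by omega), hx 17 (by omega), hx 20 (by omega),
    hx 21 (by omega), hx 22 (by omega), hx 23 (by omega), D4.rhoL, List.getD_cons_succ,
    List.getD_cons_zero]
  collect

end CfsgLib.Chev.D4Even
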