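import Cfsg.Agent.Chev.InstSmall
import Cfsg.Agent.Chev.Calculus
import Cfsg.Agent.Chev.Unipotent

/-!
# Collection rules in the unipotent group of `D₄` in characteristic two

For positive roots `r < s` the product `x_s(a) x_r(b)` is `x_r(b) x_s(a) x_{r+s}(ab)`, or
`x_r(b) x_s(a)` when `r + s` is no root.
-/

set_option autoImplicit false
set_option linter.unusedSectionVars false

namespace CfsgLib.Chev.D4Even

open Cfsg.Lie CfsgLib.Chev Matrix

universe u

variable {K : Type u} [Field K] [CharP K 2]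

/-- Root elements. -/
noncomputable abbrev X (r : ℕ) (t : K) : GL chevD4.Idx K := sysD4.xU r t

theorem X_add (r : ℕ) (t u : K) : X r t * X r u = X r (t + u) := sysD4.xU_add r t u

theorem merge (r : ℕ) (t u : K) (Z : GL chevD4.Idx K) :
    X r t * (X r u * Z) = X r (t + u) * Z := by rw [← mul_assoc, X_add]

theorem X_zero (r : ℕ) : X r (0 : K) = 1 := sysD4.xU_zero r

theorem neg_ne {r s : ℕ} (hr : 12 ≤ r) (hs : r < s) (hs' : s < 24) : s ≠ chevD4.neg r := by
  have h : chevD4.neg r = 24 - 1 - r := sysD4.{0}.neg_eq r (show r < 24 by omega)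
  omega

theorem swap0 {r s : ℕ} (hr : 12 ≤ r) (hs : r < s) (hs' : s < 24) (h : chevD4.commTerms r s = [])
    (a b : K) (Z : GL chevD4.Idx K) : X s a * (X r b * Z) = X r b * (X s a * Z) := by
  rw [← mul_assoc, ← mul_assoc,
    sysD4.comm_wU (show r < chevD4.nroots from hs.trans hs') (show s < chevD4.nroots from hs')
      hs.ne' (neg_ne hr hs hs') b a, ChevalleyDatum.commWord, h]
  simp [Sys.wU]

theorem swap1 {r s k : ℕ} (hr : 12 ≤ r) (hs : r < s) (hs' : s < 24)
    (h : (chevD4.commTerms r s).map (fun c => (c.1, c.2.1.natAbs, c.2.2)) = [(k, 1, 1, 1)])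
    (a b : K) (Z : GL chevD4.Idx K) :
    X s a * (X r b * Z) = X r b * (X s a * (X k (a * b) * Z)) := by
  obtain ⟨⟨k', M, i, j⟩, hc, e⟩ : ∃ c, chevD4.commTerms r s = [c] ∧
      (c.1, c.2.1.natAbs, c.2.2) = (k, 1, 1, 1) := by
    generalize chevD4.commTerms r s = L at h
    rcases L with _ | ⟨c, _ | ⟨c', L⟩⟩
    · simp at h
    · exact ⟨c, rfl, by simpa using h⟩
    · simp at h
  simp only [Prod.mk.injEq] at e
  obtain ⟨rfl, hM, rfl, rfl⟩ := e
  have hM' : (M : K) = 1 := by
    rcases Int.natAbs_eq_iff.1 hM with rfl | rfl <;> simp [CharTwo.neg_eq]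
  rw [← mul_assoc, ← mul_assoc,
    sysD4.comm_wU (show r < chevD4.nroots from hs.trans hs') (show s < chevD4.nroots from hs')
      hs.ne' (neg_ne hr hs hs') b a, ChevalleyDatum.commWord, hc]
  simp [Sys.wU, hM', CharTwo.neg_eq, mul_assoc, mul_comm b a]

theorem R12_13 (a b : K) (Z : GL chevD4.Idx K) :
    X 13 a * (X 12 b * Z) = X 12 b * (X 13 a * Z) :=
  swap0 (by omega) (by omega) (by omega) (by decide +kernel) a b Z

theorem R12_14 (a b : K) (Z : GL chevD4.Idx K) :
    X 14 a * (X 12 b * Z) = X 12 b * (X 14 a * (X 15 (a * b) * Z)) :=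
  swap1 (by omega) (by omega) (by omega) (by decide +kernel) a b Z

theorem R12_15 (a b : K) (Z : GL chevD4.Idx K) :
    X 15 a * (X 12 b * Z) = X 12 b * (X 15 a * Z) :=
  swap0 (by omega) (by omega) (by omega) (by decide +kernel) a b Z

theorem R12_16 (a b : K) (Z : GL chevD4.Idx K) :
    X 16 a * (X 12 b * Z) = X 12 b * (X 16 a * (X 17 (a * b) * Z)) :=
  swap1 (by omega) (by omega) (by omega) (by decide +kernel) a b Z

theorem R12_17 (a b : K) (Z : GL chevD4.Idx K) :
    X 17 a * (X 12 b * Z) = X 12 b * (X 17 a * Z) :=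
  swap0 (by omega) (by omega) (by omega) (by decide +kernel) a b Z

theorem R12_18 (a b : K) (Z : GL chevD4.Idx K) :
    X 18 a * (X 12 b * Z) = X 12 b * (X 18 a * Z) :=
  swap0 (by omega) (by omega) (by omega) (by decide +kernel) a b Z

theorem R12_19 (a b : K) (Z : GL chevD4.Idx K) :
    X 19 a * (X 12 b * Z) = X 12 b * (X 19 a * (X 20 (a * b) * Z)) :=
  swap1 (by omega) (by omega) (by omega) (by decide +kernel) a b Z

theorem R12_20 (a b : K) (Z : GL chevD4.Idx K) :
    X 20 a * (X 12 b * Z) = X 12 b * (X 20 a * Z) :=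
  swap0 (by omega) (by omega) (by omega) (by decide +kernel) a b Z

theorem R12_21 (a b : K) (Z : GL chevD4.Idx K) :
    X 21 a * (X 12 b * Z) = X 12 b * (X 21 a * (X 22 (a * b) * Z)) :=
  swap1 (by omega) (by omega) (by omega) (by decide +kernel) a b Z

theorem R12_22 (a b : K) (Z : GL chevD4.Idx K) :
    X 22 a * (X 12 b * Z) = X 12 b * (X 22 a * Z) :=
  swap0 (by omega) (by omega) (by omega) (by decide +kernel) a b Z

theorem R12_23 (a b : K) (Z : GL chevD4.Idx K) :
    X 23 a * (X 12 b * Z) = X 12 b * (X 23 a * Z) :=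
  swap0 (by omega) (by omega) (by omega) (by decide +kernel) a b Z

theorem R13_14 (a b : K) (Z : GL chevD4.Idx K) :
    X 14 a * (X 13 b * Z) = X 13 b * (X 14 a * (X 16 (a * b) * Z)) :=
  swap1 (by omega) (by omega) (by omega) (by decide +kernel) a b Z

theorem R13_15 (a b : K) (Z : GL chevD4.Idx K) :
    X 15 a * (X 13 b * Z) = X 13 b * (X 15 a * (X 17 (a * b) * Z)) :=
  swap1 (by omega) (by omega) (by omega) (by decide +kernel) a b Z

theorem R13_16 (a b : K) (Z : GL chevD4.Idx K) :
    X 16 a * (X 13 b * Z) = X 13 b * (X 16 a * Z) :=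
  swap0 (by omega) (by omega) (by omega) (by decide +kernel) a b Z

theorem R13_17 (a b : K) (Z : GL chevD4.Idx K) :
    X 17 a * (X 13 b * Z) = X 13 b * (X 17 a * Z) :=
  swap0 (by omega) (by omega) (by omega) (by decide +kernel) a b Z

theorem R13_18 (a b : K) (Z : GL chevD4.Idx K) :
    X 18 a * (X 13 b * Z) = X 13 b * (X 18 a * Z) :=
  swap0 (by omega) (by omega) (by omega) (by decide +kernel) a b Z

theorem R13_19 (a b : K) (Z : GL chevD4.Idx K) :
    X 19 a * (X 13 b * Z) = X 13 b * (X 19 a * (X 21 (a * b) * Z)) :=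
  swap1 (by omega) (by omega) (by omega) (by decide +kernel) a b Z

theorem R13_20 (a b : K) (Z : GL chevD4.Idx K) :
    X 20 a * (X 13 b * Z) = X 13 b * (X 20 a * (X 22 (a * b) * Z)) :=
  swap1 (by omega) (by omega) (by omega) (by decide +kernel) a b Z

theorem R13_21 (a b : K) (Z : GL chevD4.Idx K) :
    X 21 a * (X 13 b * Z) = X 13 b * (X 21 a * Z) :=
  swap0 (by omega) (by omega) (by omega) (by decide +kernel) a b Z

theorem R13_22 (a b : K) (Z : GL chevD4.Idx K) :
    X 22 a * (X 13 b * Z) = X 13 b * (X 22 a * Z) :=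
  swap0 (by omega) (by omega) (by omega) (by decide +kernel) a b Z

theorem R13_23 (a b : K) (Z : GL chevD4.Idx K) :
    X 23 a * (X 13 b * Z) = X 13 b * (X 23 a * Z) :=
  swap0 (by omega) (by omega) (by omega) (by decide +kernel) a b Z

theorem R14_15 (a b : K) (Z : GL chevD4.Idx K) :
    X 15 a * (X 14 b * Z) = X 14 b * (X 15 a * Z) :=
  swap0 (by omega) (by omega) (by omega) (by decide +kernel) a b Z

theorem R14_16 (a b : K) (Z : GL chevD4.Idx K) :
    X 16 a * (X 14 b * Z) = X 14 b * (X 16 a * Z) :=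
  swap0 (by omega) (by omega) (by omega) (by decide +kernel) a b Z

theorem R14_17 (a b : K) (Z : GL chevD4.Idx K) :
    X 17 a * (X 14 b * Z) = X 14 b * (X 17 a * Z) :=
  swap0 (by omega) (by omega) (by omega) (by decide +kernel) a b Z

theorem R14_18 (a b : K) (Z : GL chevD4.Idx K) :
    X 18 a * (X 14 b * Z) = X 14 b * (X 18 a * (X 19 (a * b) * Z)) :=
  swap1 (by omega) (by omega) (by omega) (by decide +kernel) a b Z

theorem R14_19 (a b : K) (Z : GL chevD4.Idx K) :
    X 19 a * (X 14 b * Z) = X 14 b * (X 19 a * Z) :=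
  swap0 (by omega) (by omega) (by omega) (by decide +kernel) a b Z

theorem R14_20 (a b : K) (Z : GL chevD4.Idx K) :
    X 20 a * (X 14 b * Z) = X 14 b * (X 20 a * Z) :=
  swap0 (by omega) (by omega) (by omega) (by decide +kernel) a b Z

theorem R14_21 (a b : K) (Z : GL chevD4.Idx K) :
    X 21 a * (X 14 b * Z) = X 14 b * (X 21 a * Z) :=
  swap0 (by omega) (by omega) (by omega) (by decide +kernel) a b Z

theorem R14_22 (a b : K) (Z : GL chevD4.Idx K) :
    X 22 a * (X 14 b * Z) = X 14 b * (X 22 a * (X 23 (a * b) * Z)) :=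
  swap1 (by omega) (by omega) (by omega) (by decide +kernel) a b Z

theorem R14_23 (a b : K) (Z : GL chevD4.Idx K) :
    X 23 a * (X 14 b * Z) = X 14 b * (X 23 a * Z) :=
  swap0 (by omega) (by omega) (by omega) (by decide +kernel) a b Z

theorem R15_16 (a b : K) (Z : GL chevD4.Idx K) :
    X 16 a * (X 15 b * Z) = X 15 b * (X 16 a * Z) :=
  swap0 (by omega) (by omega) (by omega) (by decide +kernel) a b Z

theorem R15_17 (a b : K) (Z : GL chevD4.Idx K) :
    X 17 a * (X 15 b * Z) = X 15 b * (X 17 a * Z) :=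
  swap0 (by omega) (by omega) (by omega) (by decide +kernel) a b Z

theorem R15_18 (a b : K) (Z : GL chevD4.Idx K) :
    X 18 a * (X 15 b * Z) = X 15 b * (X 18 a * (X 20 (a * b) * Z)) :=
  swap1 (by omega) (by omega) (by omega) (by decide +kernel) a b Z

theorem R15_19 (a b : K) (Z : GL chevD4.Idx K) :
    X 19 a * (X 15 b * Z) = X 15 b * (X 19 a * Z) :=
  swap0 (by omega) (by omega) (by omega) (by decide +kernel) a b Z

theorem R15_20 (a b : K) (Z : GL chevD4.Idx K) :
    X 20 a * (X 15 b * Z) = X 15 b * (X 20 a * Z) :=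
  swap0 (by omega) (by omega) (by omega) (by decide +kernel) a b Z

theorem R15_21 (a b : K) (Z : GL chevD4.Idx K) :
    X 21 a * (X 15 b * Z) = X 15 b * (X 21 a * (X 23 (a * b) * Z)) :=
  swap1 (by omega) (by omega) (by omega) (by decide +kernel) a b Z

theorem R15_22 (a b : K) (Z : GL chevD4.Idx K) :
    X 22 a * (X 15 b * Z) = X 15 b * (X 22 a * Z) :=
  swap0 (by omega) (by omega) (by omega) (by decide +kernel) a b Z

theorem R15_23 (a b : K) (Z : GL chevD4.Idx K) :
    X 23 a * (X 15 b * Z) = X 15 b * (X 23 a * Z) :=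
  swap0 (by omega) (by omega) (by omega) (by decide +kernel) a b Z

theorem R16_17 (a b : K) (Z : GL chevD4.Idx K) :
    X 17 a * (X 16 b * Z) = X 16 b * (X 17 a * Z) :=
  swap0 (by omega) (by omega) (by omega) (by decide +kernel) a b Z

theorem R16_18 (a b : K) (Z : GL chevD4.Idx K) :
    X 18 a * (X 16 b * Z) = X 16 b * (X 18 a * (X 21 (a * b) * Z)) :=
  swap1 (by omega) (by omega) (by omega) (by decide +kernel) a b Z

theorem R16_19 (a b : K) (Z : GL chevD4.Idx K) :
    X 19 a * (X 16 b * Z) = X 16 b * (X 19 a * Z) :=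
  swap0 (by omega) (by omega) (by omega) (by decide +kernel) a b Z

theorem R16_20 (a b : K) (Z : GL chevD4.Idx K) :
    X 20 a * (X 16 b * Z) = X 16 b * (X 20 a * (X 23 (a * b) * Z)) :=
  swap1 (by omega) (by omega) (by omega) (by decide +kernel) a b Z

theorem R16_21 (a b : K) (Z : GL chevD4.Idx K) :
    X 21 a * (X 16 b * Z) = X 16 b * (X 21 a * Z) :=
  swap0 (by omega) (by omega) (by omega) (by decide +kernel) a b Z

theorem R16_22 (a b : K) (Z : GL chevD4.Idx K) :
    X 22 a * (X 16 b * Z) = X 16 b * (X 22 a * Z) :=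
  swap0 (by omega) (by omega) (by omega) (by decide +kernel) a b Z

theorem R16_23 (a b : K) (Z : GL chevD4.Idx K) :
    X 23 a * (X 16 b * Z) = X 16 b * (X 23 a * Z) :=
  swap0 (by omega) (by omega) (by omega) (by decide +kernel) a b Z

theorem R17_18 (a b : K) (Z : GL chevD4.Idx K) :
    X 18 a * (X 17 b * Z) = X 17 b * (X 18 a * (X 22 (a * b) * Z)) :=
  swap1 (by omega) (by omega) (by omega) (by decide +kernel) a b Z

theorem R17_19 (a b : K) (Z : GL chevD4.Idx K) :
    X 19 a * (X 17 b * Z) = X 17 b * (X 19 a * (X 23 (a * b) * Z)) :=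
  swap1 (by omega) (by omega) (by omega) (by decide +kernel) a b Z

theorem R17_20 (a b : K) (Z : GL chevD4.Idx K) :
    X 20 a * (X 17 b * Z) = X 17 b * (X 20 a * Z) :=
  swap0 (by omega) (by omega) (by omega) (by decide +kernel) a b Z

theorem R17_21 (a b : K) (Z : GL chevD4.Idx K) :
    X 21 a * (X 17 b * Z) = X 17 b * (X 21 a * Z) :=
  swap0 (by omega) (by omega) (by omega) (by decide +kernel) a b Z

theorem R17_22 (a b : K) (Z : GL chevD4.Idx K) :
    X 22 a * (X 17 b * Z) = X 17 b * (X 22 a * Z) :=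
  swap0 (by omega) (by omega) (by omega) (by decide +kernel) a b Z

theorem R17_23 (a b : K) (Z : GL chevD4.Idx K) :
    X 23 a * (X 17 b * Z) = X 17 b * (X 23 a * Z) :=
  swap0 (by omega) (by omega) (by omega) (by decide +kernel) a b Z

theorem R18_19 (a b : K) (Z : GL chevD4.Idx K) :
    X 19 a * (X 18 b * Z) = X 18 b * (X 19 a * Z) :=
  swap0 (by omega) (by omega) (by omega) (by decide +kernel) a b Z

theorem R18_20 (a b : K) (Z : GL chevD4.Idx K) :
    X 20 a * (X 18 b * Z) = X 18 b * (X 20 a * Z) :=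
  swap0 (by omega) (by omega) (by omega) (by decide +kernel) a b Z

theorem R18_21 (a b : K) (Z : GL chevD4.Idx K) :
    X 21 a * (X 18 b * Z) = X 18 b * (X 21 a * Z) :=
  swap0 (by omega) (by omega) (by omega) (by decide +kernel) a b Z

theorem R18_22 (a b : K) (Z : GL chevD4.Idx K) :
    X 22 a * (X 18 b * Z) = X 18 b * (X 22 a * Z) :=
  swap0 (by omega) (by omega) (by omega) (by decide +kernel) a b Z

theorem R18_23 (a b : K) (Z : GL chevD4.Idx K) :
    X 23 a * (X 18 b * Z) = X 18 b * (X 23 a * Z) :=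
  swap0 (by omega) (by omega) (by omega) (by decide +kernel) a b Z

theorem R19_20 (a b : K) (Z : GL chevD4.Idx K) :
    X 20 a * (X 19 b * Z) = X 19 b * (X 20 a * Z) :=
  swap0 (by omega) (by omega) (by omega) (by decide +kernel) a b Z

theorem R19_21 (a b : K) (Z : GL chevD4.Idx K) :
    X 21 a * (X 19 b * Z) = X 19 b * (X 21 a * Z) :=
  swap0 (by omega) (by omega) (by omega) (by decide +kernel) a b Z

theorem R19_22 (a b : K) (Z : GL chevD4.Idx K) :
    X 22 a * (X 19 b * Z) = X 19 b * (X 22 a * Z) :=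
  swap0 (by omega) (by omega) (by omega) (by decide +kernel) a b Z

theorem R19_23 (a b : K) (Z : GL chevD4.Idx K) :
    X 23 a * (X 19 b * Z) = X 19 b * (X 23 a * Z) :=
  swap0 (by omega) (by omega) (by omega) (by decide +kernel) a b Z

theorem R20_21 (a b : K) (Z : GL chevD4.Idx K) :
    X 21 a * (X 20 b * Z) = X 20 b * (X 21 a * Z) :=
  swap0 (by omega) (by omega) (by omega) (by decide +kernel) a b Z

theorem R20_22 (a b : K) (Z : GL chevD4.Idx K) :
    X 22 a * (X 20 b * Z) = X 20 b * (X 22 a * Z) :=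
  swap0 (by omega) (by omega) (by omega) (by decide +kernel) a b Z

theorem R20_23 (a b : K) (Z : GL chevD4.Idx K) :
    X 23 a * (X 20 b * Z) = X 20 b * (X 23 a * Z) :=
  swap0 (by omega) (by omega) (by omega) (by decide +kernel) a b Z

theorem R21_22 (a b : K) (Z : GL chevD4.Idx K) :
    X 22 a * (X 21 b * Z) = X 21 b * (X 22 a * Z) :=
  swap0 (by omega) (by omega) (by omega) (by decide +kernel) a b Z

theorem R21_23 (a b : K) (Z : GL chevD4.Idx K) :
    X 23 a * (X 21 b * Z) = X 21 b * (X 23 a * Z) :=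
  swap0 (by omega) (by omega) (by omega) (by decide +kernel) a b Z

theorem R22_23 (a b : K) (Z : GL chevD4.Idx K) :
    X 23 a * (X 22 b * Z) = X 22 b * (X 23 a * Z) :=
  swap0 (by omega) (by omega) (by omega) (by decide +kernel) a b Z

/-- Equality of words in the root elements, up to associativity. -/
theorem ext_tail {A B : GL chevD4.Idx K} (h : ∀ Z, A * Z = B * Z) : A = B := by simpa using h 1

end CfsgLib.Chev.D4Even
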